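import Cfsg.Agent.BabyM.Instance
import Cfsg.Agent.BM.KHAll
import Cfsg.Agent.CpAut.TwoInnerB
import Cfsg.Agent.SP.Pos.C.Signed

/-! # S5755, the row of the Baby Monster: `2.²E₆(2):2 > 2.²E₆(2)`

In the model of degree 4371 the centraliser of the transposition `t₀` is the stabiliser of `± d₀`; every axis is fixed
up to sign by a conjugate of one transposition negating `d₀`. -/

set_option autoImplicit false

namespace Cfsg.Agent.SP.PosC.Baby

open Cfsg.Agent.Monster.VecEngine Cfsg.Agent.Monster.VecSpace Cfsg.Agent.BabyM.Conc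
  Cfsg.Agent.BabyM.ConcGrp Cfsg.Agent.BabyM.TransInv Cfsg.Agent.BabyM.Inst Cfsg.Agent.BabyM.Model
  Cfsg.Agent.BabyM.InstVec Cfsg.Agent.BabyM.InstZ Cfsg.Agent.BabyM.TransCover Cfsg.Agent.BabyM.TransData
  Cfsg.Agent.BabyM.TransFields

/-- A word negating the base axis. -/
def ty : List Ltr :=
  [.p5, .xi, .p4, .taui, .xii, .p, .Z0, .Z2, .Z4, .Z5, .Z6, .p10, .xi, .tau, .p7, .xii, .p6]

/-- A word fixing the base axis up to sign, and two signs. -/
structure Cert where
  /-- the word -/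
  s : List Ltr
  /-- the word negates the base axis -/
  a : Bool
  /-- `ty` negates the image -/
  b : Bool

/-- The kernel check of one certificate. -/
noncomputable def chk (x : Pl) (r : BabyM.TransCover.Rep) (c : Cert) : Bool :=
  check (c.s.map Ltr.prog) dv0 [] (bif c.a then neg U dv0 else dv0) &&
    check ((winv r.h ++ c.s ++ ty).map Ltr.prog) x ((winv r.h ++ c.s).map Ltr.prog) (bif c.b then neg U x else x)

/-- The certificates in the order of the representatives. -/
noncomputable def chkZip (x : Pl) (rs : List BabyM.TransCover.Rep) (cs : List Cert) : Bool :=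
  Nat.ble rs.length cs.length && (rs.zip cs).all fun p => chk x p.1 p.2

theorem exists_of_zip {x : Pl} {rs : List BabyM.TransCover.Rep} {cs : List Cert} (h : chkZip x rs cs = true) :
    ∀ r ∈ rs, ∃ c, chk x r c = true := by
  unfold chkZip at h
  rw [Bool.and_eq_true, List.all_eq_true] at h
  have hl : rs.length ≤ cs.length := Nat.le_of_ble_eq_true h.1
  intro r hr
  obtain ⟨i, hi, rfl⟩ := List.getElem_of_mem hr
  refine ⟨cs[i]'(by omega), h.2 (rs[i], cs[i]'(by omega)) ?_⟩
  rw [List.mem_iff_getElem]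
  exact ⟨i, by rw [List.length_zip]; omega, by rw [List.getElem_zip]⟩

/-- Certificates for the representatives of table 0. -/
def cs0 : List Cert := [⟨[], false, true⟩,
  ⟨[], false, true⟩,
  ⟨[], false, true⟩,
  ⟨[.p3, .h], true, false⟩]

/-- Certificates for the representatives of table 1. -/
def cs1 : List Cert := [⟨[.p, .h, .p10, .p3, .h], false, true⟩,
  ⟨[.X7, .p3, .h], true, false⟩,
  ⟨[], false, false⟩]

/-- Certificates for the representatives of table 2. -/
def cs2 : List Cert := [⟨[.p3, .h], true, true⟩,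
  ⟨[.tau, .y8], false, true⟩,
  ⟨[.h, .p8, .y4], true, false⟩,
  ⟨[.p, .h, .p10, .y4], true, true⟩]

/-- Certificates for the representatives of table 3. -/
def cs3 : List Cert := [⟨[.X3, .y8], false, false⟩,
  ⟨[.Z3, .p3, .h], true, false⟩,
  ⟨[.tau, .X3], false, false⟩,
  ⟨[.X1, .y8], false, true⟩]

/-- Certificates for the representatives of table 4. -/
def cs4 : List Cert := [⟨[.X7, .tau, .xii], false, true⟩,
  ⟨[.y9, .tau], false, true⟩,
  ⟨[.p, .xi, .p10, .X7], false, true⟩,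
  ⟨[.y8, .tau], false, true⟩,
  ⟨[.p3, .h, .X3, .y9], true, false⟩]

theorem ty_chk : check (ty.map Ltr.prog) dv0 [] (neg U dv0) = true := by decide +kernel

theorem z0 : chkZip dv0 T0.reps cs0 = true := by decide +kernel
theorem z1 : chkZip dv1 T1.reps cs1 = true := by decide +kernel
theorem z2 : chkZip dv2 T2.reps cs2 = true := by decide +kernel
theorem z3 : chkZip dv3 T3.reps cs3 = true := by decide +kernel
theorem z4 : chkZip dv4 T4.reps cs4 = true := by decide +kernel

theorem all_cert (j : Fin 5) : ∀ r ∈ (TT j).reps, ∃ c, chk (dv j) r c = true := by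
  fin_cases j
  · exact exists_of_zip z0
  · exact exists_of_zip z1
  · exact exists_of_zip z2
  · exact exists_of_zip z3
  · exact exists_of_zip z4

theorem ty_neg : W ty M.d₀ = - M.d₀ := by
  have e := W_eq_of_check (v₂ := []) ty_chk
  rw [W_nil, LinearEquiv.coe_one, id, vecU_neg] at e
  rw [d₀_eq', map_smul, e, smul_neg]

/-- One representative. -/
theorem rep_sound {j : Fin 5} {r : BabyM.TransCover.Rep} {c : Cert} (h : chk (dv j) r c = true) :
    ∃ k ∈ M.G, k (W r.h M.d₀) = - W r.h M.d₀ ∧ (k (M.d j) = M.d j ∨ k (M.d j) = - M.d j) := by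
  unfold chk at h
  rw [Bool.and_eq_true] at h
  have e1 := W_eq_of_check (v₂ := []) h.1
  have e2 := W_eq_of_check h.2
  rw [W_nil, LinearEquiv.coe_one, id] at e1
  have h1 : W c.s M.d₀ = M.d₀ ∨ W c.s M.d₀ = - M.d₀ := by
    rw [d₀_eq', map_smul, e1]
    cases c.a
    · exact Or.inl rfl
    · right; rw [cond_true, vecU_neg, smul_neg]
  set w : V ≃ₗ[ℚ] V := W (winv r.h ++ c.s) with hw
  have h2 : W ty (w (M.d j)) = w (M.d j) ∨ W ty (w (M.d j)) = - w (M.d j) := by
    rw [W_append, LinearEquiv.mul_apply, ← hw] at e2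
    rw [M_d_eq, map_smul, map_smul, e2]
    cases c.b
    · exact Or.inl rfl
    · right; rw [cond_true, vecU_neg, map_neg, smul_neg]
  have h3 : w (W r.h M.d₀) = W c.s M.d₀ := by
    rw [hw, W_append, LinearEquiv.mul_apply, W_winv_apply]
  have hwG : w ∈ M.G := W_mem_MG _
  refine ⟨w⁻¹ * W ty * w, M.G.mul_mem (M.G.mul_mem (M.G.inv_mem hwG) (W_mem_MG _)) hwG, ?_, ?_⟩
  · have h4 : W ty (w (W r.h M.d₀)) = - w (W r.h M.d₀) := by
      rw [h3]
      rcases h1 with h1 | h1
      · rw [h1, ty_neg]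
      · rw [h1, map_neg, ty_neg]
    rw [LinearEquiv.mul_apply, LinearEquiv.mul_apply, h4, map_neg, inv_apply_self']
  · rw [LinearEquiv.mul_apply, LinearEquiv.mul_apply]
    rcases h2 with h2 | h2
    · left; rw [h2, inv_apply_self']
    · right; rw [h2, map_neg, inv_apply_self']

/-- Every axis is fixed up to sign by an element negating the base axis. -/
theorem key (g : V ≃ₗ[ℚ] V) (hg : g ∈ M.G) :
    ∃ k ∈ M.G, k M.d₀ = - M.d₀ ∧ (k (g M.d₀) = g M.d₀ ∨ k (g M.d₀) = - g M.d₀) := by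
  have A := BabyM.Instance.all
  obtain ⟨j, h, hh, e⟩ : g M.d₀ ∈ M.D := ((A.G_le hg).2 _).2 A.d₀_mem
  obtain ⟨l, hl, r, hr, hb⟩ := cover j (h⁻¹ M.d₀) ⟨h⁻¹, M.C.inv_mem hh, rfl⟩
  obtain ⟨c, hc⟩ := all_cert j r hr
  obtain ⟨k, hk, hk1, hk2⟩ := rep_sound hc
  have hlG : l ∈ M.G := A.C_le_G hl.1
  have hhG : h ∈ M.G := A.C_le_G hh
  have hld : l (M.d j) = M.d j := stab_d hl
  have hld' : l⁻¹ (M.d j) = M.d j := by
    conv_lhs => rw [← hld]
    exact inv_apply_self' l _
  refine ⟨h * l * k * l⁻¹ * h⁻¹, M.G.mul_mem (M.G.mul_mem (M.G.mul_mem (M.G.mul_mem hhG hlG) hk)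
    (M.G.inv_mem hlG)) (M.G.inv_mem hhG), ?_, ?_⟩
  · have h5 : M.d₀ = h (h⁻¹ M.d₀) := (apply_inv_self' h _).symm
    simp only [LinearEquiv.mul_apply]
    rcases hb with hb | hb
    · conv_rhs => rw [h5]
      rw [hb, inv_apply_self', hk1, map_neg, map_neg]
    · conv_rhs => rw [h5]
      rw [hb, map_neg, map_neg, inv_apply_self', hk1]
      simp only [map_neg]
  · simp only [LinearEquiv.mul_apply]
    rw [e, inv_apply_self', hld']
    rcases hk2 with hk2 | hk2
    · left; rw [hk2, hld]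
    · right; rw [hk2, map_neg, map_neg, hld]

theorem pair_model : Pair M.G := by
  have A := BabyM.Instance.all
  have h7 := A.F_d₀
  refine ⟨_, _, isPair_signed (T := M.G) (X := V) (fun x => - x) (fun g x => map_neg (g : V ≃ₗ[ℚ] V) x)
    (fun x => neg_neg x) M.d₀ ?_ ?_ fun g => ?_⟩
  · intro h
    have h2 : M.F M.d₀ M.d₀ = - M.F M.d₀ M.d₀ := by
      conv_lhs => rw [← h]
      rw [LinearMap.BilinForm.neg_left, h]
    linarith
  · obtain ⟨q, hq, h1, -⟩ := A.d₁_mem'
    have h3 := A.F_d₁_d₀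
    refine ⟨⟨q, A.C_le_G (A.grp.Q_le hq)⟩, fun h => ?_, fun h => ?_⟩
    · have h' : q M.d₀ = M.d₀ := h
      rw [← h1, h', h7] at h3
      norm_num at h3
    · have h' : q M.d₀ = - M.d₀ := h
      rw [← h1, h', LinearMap.BilinForm.neg_left, h7] at h3
      norm_num at h3
  · obtain ⟨k, hk, h1, h2⟩ := key g g.2
    exact ⟨⟨k, hk⟩, h1, h2⟩

end Cfsg.Agent.SP.PosC.Baby

namespace Cfsg.Agent.SP

/-- The Baby Monster has a pair. -/
theorem posB : PairAut Spor.BabyMonster :=
  (PosC.Baby.pair_model.of_equiv BM.KHAll.iso.symm).pairAut CpAut.TwoInner.inner_b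

end Cfsg.Agent.SP
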