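import Cfsg.Agent.SP.Pos.A.PM
import Cfsg.Agent.SP.Pos.A.HSData
import Cfsg.Agent.HN.AutHS

/-!
# S5755, positive rows: `HS`, the pair `U₃(5):2 > U₃(5)` (helper22)

The objects are the halves of the 352 partitions of the Higman-Sims graph into two Hoffman-Singleton graphs.
-/

set_option autoImplicit false

namespace Cfsg.Agent.SP.PosHS

open Equiv Cfsg.Agent.SporadicA.PermTab Cfsg.Agent.HN.HS100 Cfsg.Agent.HN.Pres Cfsg.Agent.SP.PM Cfsg.Agent.SP.HSData

/-- a bit -/
def bt (m i : ℕ) : ℕ := Nat.land (Nat.shiftRight m i) 1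

theorem bt_le (m i : ℕ) : bt m i ≤ 1 := Nat.and_le_right

/-- the set of a mask -/
def S (m : ℕ) : Set (Fin 100) := {i | bt m i = 1}

/-- the action on sets -/
def act (g : Perm (Fin 100)) (s : Set (Fin 100)) : Set (Fin 100) := {i | g⁻¹ i ∈ s}

/-- `P` maps `a` onto `b` -/
def same (P a b : ℕ) : Bool := allB (fun i => Nat.beq (bt b (lk P i)) (bt a i)) 100

/-- `P` maps `a` onto the complement of `b` -/
def opp (P a b : ℕ) : Bool := allB (fun i => nbeq (bt b (lk P i)) (bt a i)) 100

/-- `P` maps `a` onto `b` or its complement -/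
def pm (P a b : ℕ) : Bool := forceB a fun a => forceB b fun b => cond (same P a b) true (opp P a b)

theorem act_same {g : Perm (Fin 100)} {P a b : ℕ} (hg : ∀ i, (g i : ℕ) = lk P i) (h : same P a b = true) :
    act g (S a) = S b := by
  ext i
  obtain ⟨i, rfl⟩ := g.surjective i
  have h1 := Nat.eq_of_beq_eq_true ((allB_iff _ _).1 h i i.2)
  change bt a (g⁻¹ (g i) : Fin 100) = 1 ↔ bt b (g i) = 1
  rw [← Perm.mul_apply, inv_mul_cancel, Perm.one_apply, hg, h1]

theorem act_opp {g : Perm (Fin 100)} {P a b : ℕ} (hg : ∀ i, (g i : ℕ) = lk P i) (h : opp P a b = true) :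
    act g (S a) = (S b)ᶜ := by
  ext i
  obtain ⟨i, rfl⟩ := g.surjective i
  have h1 := (nbeq_iff _ _).1 ((allB_iff _ _).1 h i i.2)
  change bt a (g⁻¹ (g i) : Fin 100) = 1 ↔ ¬ bt b (g i) = 1
  rw [← Perm.mul_apply, inv_mul_cancel, Perm.one_apply, hg]
  have h2 := bt_le a i
  have h3 := bt_le b (lk P i)
  omega

theorem act_pm {g : Perm (Fin 100)} {P a b : ℕ} (hg : ∀ i, (g i : ℕ) = lk P i) (h : pm P a b = true) :
    act g (S a) = S b ∨ act g (S a) = (S b)ᶜ := by
  unfold pm at h
  rw [forceB_eq, forceB_eq] at h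
  cases h1 : same P a b with
  | true => exact Or.inl (act_same hg h1)
  | false =>
    rw [h1, cond_false] at h
    exact Or.inr (act_opp hg h)

/-- the `j`-th half -/
def ent (j : ℕ) : ℕ := Nat.land (Nat.shiftRight WW (Nat.mul 100 j)) 0xfffffffffffffffffffffffff

theorem dat : Dat (autG 100 adjA) Q act compl (S (ent 0)) where
  le := Q_le
  one _ := rfl
  mul g h x := by
    ext i
    change (g * h)⁻¹ i ∈ x ↔ h⁻¹ (g⁻¹ i) ∈ x
    rw [mul_inv_rev, Perm.mul_apply]
  comm _ _ _ := rfl
  nn := compl_compl _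
  ne h := by
    have h1 : (0 : Fin 100) ∈ S (ent 0) := by
      change bt (ent 0) 0 = 1
      decide +kernel
    have h2 := h1
    rw [← h] at h2
    exact h2 h1

/-- closure under a generator -/
def clos (P F : ℕ) : Bool := allB (fun j => band (Nat.blt (lk F j) 352) (pm P (ent j) (ent (lk F j)))) 352

theorem cX' : clos tX fX = true := by decide +kernel
theorem cY' : clos tY fY = true := by decide +kernel
theorem cZ' : clos tZ fZ = true := by decide +kernel

/-- the objects -/
def Obj (y : Set (Fin 100)) : Prop := ∃ j < 352, y = S (ent j) ∨ y = (S (ent j))ᶜ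

theorem obj_act {g : Perm (Fin 100)} {P F : ℕ} (hg : ∀ i, (g i : ℕ) = lk P i) (h : clos P F = true)
    (y : Set (Fin 100)) (hy : Obj y) : Obj (act g y) := by
  obtain ⟨j, hj, hy⟩ := hy
  have h1 := (allB_iff _ _).1 h j hj
  rw [band_eq_true] at h1
  refine ⟨lk F j, Nat.blt_eq.mp h1.1, ?_⟩
  have h2 := act_pm hg h1.2
  rcases hy with rfl | rfl
  · exact h2
  · change (act g (S (ent j)))ᶜ = _ ∨ (act g (S (ent j)))ᶜ = _
    rcases h2 with h2 | h2
    · right
      rw [h2]
    · left
      rw [h2, compl_compl]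

theorem obj_all {h : Perm (Fin 100)} (hh : h ∈ autG 100 adjA) : Obj (act h (S (ent 0))) := by
  rw [← Cfsg.Agent.HN.AutBound.range_eq, MonoidHom.range_eq_map, ← closure_gens, MonoidHom.map_closure] at hh
  refine closed_of_gens dat.one dat.mul Obj ?_ hh _ ⟨0, by norm_num, Or.inl rfl⟩
  rintro _ ⟨g, rfl | rfl | rfl, rfl⟩
  · rw [φ_gx]
    exact obj_act (fun _ => rfl) cX'
  · rw [φ_gy]
    exact obj_act (fun _ => rfl) cY'
  · rw [φ_gz]
    exact obj_act (fun _ => rfl) cZ'

theorem in_a0 : InG Q a0 := word_of (L := [tY, tY, tY]) (mem3 inX inY inW) (by simp) (by decide +kernel)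
theorem in_a1 : InG Q a1 :=
  word_of (L := [tX, tW, tX, tY, tX, tY, tY, tX]) (mem3 inX inY inW) (by simp) (by decide +kernel)
theorem in_g0 : InG Q g0 := word_of (L := [a1]) (mem2 in_a0 in_a1) (by simp) (by decide +kernel)
theorem in_g1 : InG Q g1 := word_of (L := [a1, a1, a1]) (mem2 in_a0 in_a1) (by simp) (by decide +kernel)
theorem in_g2 : InG Q g2 :=
  word_of (L := [a0, a1, a1, a1, a1, a1]) (mem2 in_a0 in_a1) (by simp) (by decide +kernel)
theorem in_g3 : InG Q g3 :=
  word_of (L := [a0, a1, a1, a0, a1, a0, a1, a0, a1, a0, a1, a1]) (mem2 in_a0 in_a1) (by simp) (by decide +kernel)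

theorem good_root {P j : ℕ} (hP : InG Q P) (h1 : opp P (ent 0) (ent 0) = true) (h2 : pm P (ent j) (ent j) = true) :
    Good Q act compl (S (ent 0)) (S (ent j)) := by
  obtain ⟨g, hg, hgi⟩ := hP
  exact ⟨g, hg, act_opp hgi h1, act_pm hgi h2⟩

/-- the edge of the forest ending at `j` -/
def edge (j : ℕ) : Bool :=
  cond (Nat.beq j 0 || Nat.beq j 1 || Nat.beq j 127 || Nat.beq j 302) true
    (band (Nat.blt (lk par j) j) (pm (cond (Nat.beq (lk gen j) 0) a0 a1) (ent (lk par j)) (ent j)))

theorem forest : allB edge 352 = true := by decide +kernel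

theorem good_ent (j : ℕ) (hj : j < 352) : Good Q act compl (S (ent 0)) (S (ent j)) := by
  induction j using Nat.strong_induction_on with
  | _ j ih =>
    have h := (allB_iff _ _).1 forest j hj
    unfold edge at h
    cases h1 : (Nat.beq j 0 || Nat.beq j 1 || Nat.beq j 127 || Nat.beq j 302) with
    | true =>
      simp only [Bool.or_eq_true, Nat.beq_eq] at h1
      rcases h1 with ((rfl | rfl) | rfl) | rfl
      · exact good_root in_g0 (by decide +kernel) (by decide +kernel)
      · exact good_root in_g1 (by decide +kernel) (by decide +kernel)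
      · exact good_root in_g2 (by decide +kernel) (by decide +kernel)
      · exact good_root in_g3 (by decide +kernel) (by decide +kernel)
    | false =>
      rw [h1, cond_false, band_eq_true] at h
      have hp : lk par j < j := Nat.blt_eq.mp h.1
      have h2 : ∃ a ∈ Q, (∀ i, (a i : ℕ) = lk (cond (Nat.beq (lk gen j) 0) a0 a1) i) ∧
          (act a (S (ent 0)) = S (ent 0) ∨ act a (S (ent 0)) = (S (ent 0))ᶜ) := by
        cases Nat.beq (lk gen j) 0 with
        | true =>
          obtain ⟨a, ha, hai⟩ := in_a0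
          exact ⟨a, ha, hai, act_pm hai (by decide +kernel)⟩
        | false =>
          obtain ⟨a, ha, hai⟩ := in_a1
          exact ⟨a, ha, hai, act_pm hai (by decide +kernel)⟩
      obtain ⟨a, ha, hai, hst⟩ := h2
      have h3 := dat.good_act ha hst (ih _ hp (by omega))
      rcases act_pm hai h.2 with h4 | h4
      · rwa [h4] at h3
      · rw [h4] at h3
        have h5 := dat.good_neg h3
        rwa [compl_compl] at h5

theorem pairAut_Q : PairAut Q := by
  refine dat.pairAut ?_ Cfsg.Agent.HN.AutHS.exists_perm ?_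
  · obtain ⟨g, hg, hgi⟩ := inX
    have h1 : ∀ i : Fin 100, g i ∈ act g (S (ent 0)) ↔ bt (ent 0) i = 1 := by
      intro i
      change bt (ent 0) (g⁻¹ (g i) : Fin 100) = 1 ↔ _
      rw [← Perm.mul_apply, inv_mul_cancel, Perm.one_apply]
    have h2 : ∀ i : Fin 100, g i ∈ S (ent 0) ↔ bt (ent 0) (lk tX i) = 1 := by
      intro i
      rw [← hgi]
      rfl
    refine ⟨g, hg, fun h => ?_, fun h => ?_⟩
    · have h3 : ∀ i : Fin 100, bt (ent 0) i = 1 ↔ bt (ent 0) (lk tX i) = 1 := fun i => by rw [← h1, h, h2]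
      revert h3
      decide +kernel
    · have h3 : ∀ i : Fin 100, bt (ent 0) i = 1 ↔ ¬ bt (ent 0) (lk tX i) = 1 := fun i => by
        rw [← h1, h, Set.mem_compl_iff, h2]
      revert h3
      decide +kernel
  · intro h hh
    obtain ⟨j, hj, h1 | h1⟩ := obj_all hh
    · rw [h1]
      exact good_ent j hj
    · rw [h1]
      exact dat.good_neg (good_ent j hj)

end Cfsg.Agent.SP.PosHS

namespace Cfsg.Agent.SP

theorem posHS : PairAut Spor.HS := by
  obtain ⟨⟨f⟩, -⟩ := Cfsg.Agent.HN.AutHS.nonempty_Q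
  exact PosHS.pairAut_Q.of_equiv f

end Cfsg.Agent.SP
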