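import Cfsg.Agent.SP.Pos.A.Tri
import Cfsg.Agent.SP.Pos.A.J2Dat
import Cfsg.Agent.H269.CubeJ2

/-!
# S5755, positive rows: `J₂`, the pair `A₅ × D₁₀ > A₅ × 5` (helper22)

The objects are the elements of order five with centraliser `5 × A₅`, the sign is inversion.
-/

set_option autoImplicit false

namespace Cfsg.Agent.SP.PosJ2

open Equiv Cfsg.Agent.SporadicA.PermTab Cfsg.Agent.SporadicA.J2Data Cfsg.Agent.SporadicA.J2Hundred
open Cfsg.Agent.SP.PM Cfsg.Agent.SP.J2Dat Cfsg.Agent.SP.Tri

/-- `y` is given by the table `a` -/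
def Ag (y : Perm (Fin 100)) (a : ℕ) : Prop := ∀ i, (y i : ℕ) = lk a i

/-- `y` or its inverse is given by the table `a` -/
def Pm (y : Perm (Fin 100)) (a : ℕ) : Prop := Ag y a ∨ Ag y⁻¹ a

theorem Ag.eq {y z : Perm (Fin 100)} {a : ℕ} (hy : Ag y a) (hz : Ag z a) : y = z :=
  Equiv.ext fun i => Fin.ext ((hy i).trans (hz i).symm)

/-- `P a P⁻¹ = b` -/
def same (P a b : ℕ) : Bool := allB (fun i => Nat.beq (lk b (lk P i)) (lk P (lk a i))) 100

/-- `P a P⁻¹ = b⁻¹` -/
def opp (P a b : ℕ) : Bool := allB (fun i => Nat.beq (lk b (lk P (lk a i))) (lk P i)) 100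

/-- `P a P⁻¹ = b` or `b⁻¹` -/
def pm (P a b : ℕ) : Bool := forceB a fun a => forceB b fun b => cond (same P a b) true (opp P a b)

theorem ag_same {g y : Perm (Fin 100)} {P a b : ℕ} (hg : Ag g P) (hy : Ag y a) (h : same P a b = true) :
    Ag (cj g y) b := by
  intro i
  obtain ⟨i, rfl⟩ := g.surjective i
  have h1 := Nat.eq_of_beq_eq_true ((allB_iff _ _).1 h i i.2)
  have h2 : cj g y (g i) = g (y i) := by
    unfold cj
    rw [Perm.mul_apply, Perm.mul_apply, ← Perm.mul_apply g⁻¹, inv_mul_cancel, Perm.one_apply]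
  rw [h2, hg, hg, hy, h1]

theorem ag_opp {g y : Perm (Fin 100)} {P a b : ℕ} (hg : Ag g P) (hy : Ag y a) (h : opp P a b = true) :
    Ag (cj g y)⁻¹ b := by
  intro i
  obtain ⟨i, rfl⟩ := (g * y).surjective i
  have h1 := Nat.eq_of_beq_eq_true ((allB_iff _ _).1 h i i.2)
  have h2 : (cj g y)⁻¹ ((g * y) i) = g i := by
    unfold cj
    rw [← Perm.mul_apply]
    congr 1
    group
  rw [h2, Perm.mul_apply, hg, hg, hy, h1]

theorem cj_inv (g y : Perm (Fin 100)) : cj g y⁻¹ = (cj g y)⁻¹ := by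
  unfold cj
  group

theorem ag_pm {g y : Perm (Fin 100)} {P a b : ℕ} (hg : Ag g P) (hy : Ag y a) (h : pm P a b = true) :
    Pm (cj g y) b := by
  unfold pm at h
  rw [forceB_eq, forceB_eq] at h
  cases h1 : same P a b with
  | true => exact Or.inl (ag_same hg hy h1)
  | false =>
    rw [h1, cond_false] at h
    exact Or.inr (ag_opp hg hy h)

theorem Pm.inv {y : Perm (Fin 100)} {a : ℕ} (h : Pm y⁻¹ a) : Pm y a := by
  rcases h with h | h
  · exact Or.inr h
  · rw [inv_inv] at h
    exact Or.inl h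

theorem pm_pm {g y : Perm (Fin 100)} {P a b : ℕ} (hg : Ag g P) (hy : Pm y a) (h : pm P a b = true) :
    Pm (cj g y) b := by
  rcases hy with hy | hy
  · exact ag_pm hg hy h
  · have h1 := ag_pm hg hy h
    rw [cj_inv] at h1
    exact h1.inv

theorem Pm.eq {y z : Perm (Fin 100)} {a : ℕ} (hy : Pm y a) (hz : Ag z a) : y = z ∨ y = z⁻¹ :=
  hy.imp (fun h => h.eq hz) fun h => by rw [← h.eq hz, inv_inv]

/-- the blocks -/
def blk (c : ℕ) : ℕ := cond (Nat.ble c 1) (cond (Nat.beq c 0) W0 W1) (cond (Nat.beq c 2) W2 W3)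

/-- the `j`-th element -/
def ent (j : ℕ) : ℕ :=
  Nat.land (Nat.shiftRight (blk (Nat.div j 252)) (Nat.mul 1100 (Nat.mod j 252))) (Nat.sub (Nat.pow 2 1100) 1)

theorem inv0 : chkInv 100 (ent 0) xi = true := by decide +kernel

/-- the base object -/
def x : Perm (Fin 100) := mkPerm (ent 0) xi inv0

theorem ag_x : Ag x (ent 0) := fun _ => rfl

theorem ag_xi : Ag x⁻¹ xi := fun _ => rfl

theorem x_ne : x⁻¹ ≠ x := by
  intro h
  have h1 : ∀ i : Fin 100, lk xi i = lk (ent 0) i := fun i => by rw [← ag_xi, h, ag_x]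
  revert h1
  decide +kernel

theorem dat : Dat (autG 100 adj) G cj (fun y => y⁻¹) x := dat_cj aut_le x_ne

/-- closure under a generator -/
def clos (P F : ℕ) : Bool := allB (fun j => band (Nat.blt (lk F j) 1008) (pm P (ent j) (ent (lk F j)))) 1008

theorem cA : clos tA fA = true := by decide +kernel
theorem cB : clos tB fB = true := by decide +kernel
theorem cC : clos tC fC = true := by decide +kernel
theorem cD : clos tD fD = true := by decide +kernel
theorem cE : clos tE fE = true := by decide +kernel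

/-- the objects -/
def Obj (y : Perm (Fin 100)) : Prop := ∃ j < 1008, Pm y (ent j)

theorem obj_act {g : Perm (Fin 100)} {P F : ℕ} (hg : Ag g P) (h : clos P F = true)
    (y : Perm (Fin 100)) (hy : Obj y) : Obj (cj g y) := by
  obtain ⟨j, hj, hy⟩ := hy
  have h1 := (allB_iff _ _).1 h j hj
  rw [band_eq_true] at h1
  exact ⟨lk F j, Nat.blt_eq.mp h1.1, pm_pm hg hy h1.2⟩

theorem obj_G {g : Perm (Fin 100)} (hg : g ∈ G) (y : Perm (Fin 100)) (hy : Obj y) : Obj (cj g y) := by
  refine closed_of_gens dat.one dat.mul Obj ?_ hg y hy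
  rintro _ (rfl | rfl | rfl | rfl | rfl)
  exacts [obj_act (fun _ => rfl) cA, obj_act (fun _ => rfl) cB, obj_act (fun _ => rfl) cC,
    obj_act (fun _ => rfl) cD, obj_act (fun _ => rfl) cE]

theorem in_a0 : InG G a0 := InG.word (inAll' (L := [tD, tB]) (by decide +kernel)) (by decide +kernel)
theorem in_a1 : InG G a1 := InG.word (inAll' (L := [tB, tE, tD, tC, tB, tA, tB, tD, tC, tB, tA, tD, tE, tD, tC, tD,
  tB, tC, tD, tE, tC]) (by decide +kernel)) (by decide +kernel)

theorem rw_ok : allB (fun r => band ((J2Dat.rw.getD r []).all fun P => Nat.beq P a0 || Nat.beq P a1)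
    (chkWord 100 (rg.getD r 0) (J2Dat.rw.getD r []))) 11 = true := by decide +kernel

theorem in_rg {r : ℕ} (hr : r < 11) : InG G (rg.getD r 0) := by
  have h := (allB_iff _ _).1 rw_ok r hr
  rw [band_eq_true] at h
  refine InG.word (fun P hP => ?_) h.2
  have h1 := List.all_eq_true.1 h.1 P hP
  simp only [Bool.or_eq_true, Nat.beq_eq] at h1
  rcases h1 with rfl | rfl
  exacts [in_a0, in_a1]

/-- the edge of the forest starting at `j` -/
def edge (j : ℕ) : Bool :=
  cond (Nat.beq (lk par j) 2047)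
    (band (Nat.blt (lk gen j) 11) (band (opp (rg.getD (lk gen j) 0) (ent 0) (ent 0))
      (pm (rg.getD (lk gen j) 0) (ent j) (ent j))))
    (band (Nat.blt (lk par j) j) (pm (cond (Nat.beq (lk gen j) 0) a0 a1) (ent j) (ent (lk par j))))

theorem forest : allB edge 1008 = true := by decide +kernel

theorem good_ent (j : ℕ) (hj : j < 1008) : ∀ y, Ag y (ent j) → Good G cj (fun y => y⁻¹) x y := by
  induction j using Nat.strong_induction_on with
  | _ j ih =>
    intro y hy
    have h := (allB_iff _ _).1 forest j hj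
    unfold edge at h
    cases h1 : Nat.beq (lk par j) 2047 with
    | true =>
      rw [h1, cond_true, band_eq_true, band_eq_true] at h
      obtain ⟨g, hg, hgi⟩ := in_rg (Nat.blt_eq.mp h.1)
      refine ⟨g, hg, ?_, (ag_pm hgi hy h.2.2).eq hy⟩
      have h2 := (ag_opp hgi ag_x h.2.1).eq ag_x
      exact inv_eq_iff_eq_inv.1 h2
    | false =>
      rw [h1, cond_false, band_eq_true] at h
      have hp : lk par j < j := Nat.blt_eq.mp h.1
      have h2 : ∃ a ∈ G, Ag a (cond (Nat.beq (lk gen j) 0) a0 a1) ∧ (cj a x = x ∨ cj a x = x⁻¹) := by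
        cases Nat.beq (lk gen j) 0 with
        | true =>
          obtain ⟨a, ha, hai⟩ := in_a0
          exact ⟨a, ha, hai, (ag_pm hai ag_x (by decide +kernel)).eq ag_x⟩
        | false =>
          obtain ⟨a, ha, hai⟩ := in_a1
          exact ⟨a, ha, hai, (ag_pm hai ag_x (by decide +kernel)).eq ag_x⟩
      obtain ⟨a, ha, hai, hst⟩ := h2
      have h3 : Good G cj (fun y => y⁻¹) x (cj a y) := by
        rcases ag_pm hai hy h.2 with h4 | h4
        · exact ih _ hp (by omega) _ h4
        · have h5 := dat.good_neg (ih _ hp (by omega) _ h4)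
          simp only [inv_inv] at h5
          exact h5
      have h6 := dat.good_act (G.inv_mem ha) (dat.inv_pm ha hst) h3
      rwa [dat.inv_act] at h6

theorem good_obj {y : Perm (Fin 100)} (hy : Obj y) : Good G cj (fun y => y⁻¹) x y := by
  obtain ⟨j, hj, h | h⟩ := hy
  · exact good_ent j hj y h
  · have h5 := dat.good_neg (good_ent j hj _ h)
    simp only [inv_inv] at h5
    exact h5

theorem good_sq {y : Perm (Fin 100)} (hy : Good G cj (fun y => y⁻¹) x y) : Good G cj (fun y => y⁻¹) x (y * y) := by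
  obtain ⟨g, hg, h1, h2⟩ := hy
  have h3 : cj g (y * y) = cj g y * cj g y := by
    unfold cj
    group
  refine ⟨g, hg, h1, ?_⟩
  rw [h3]
  rcases h2 with h2 | h2
  · left
    rw [h2]
  · right
    rw [h2]
    exact (mul_inv_rev y y).symm

theorem cT : allB (fun i => Nat.beq (lk (ent 481) i)
    (lk tT (lk (ent 0) (lk (ent 0) (lk (ent 0) (lk tT i)))))) 100 = true := by decide +kernel

theorem c6 : allB (fun i => Nat.beq (lk (ent 0) (lk (ent 0) (lk (ent 0) (lk (ent 0) (lk (ent 0) i))))) i) 100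
    = true := by decide +kernel

theorem pT_sq : pT * pT = 1 := Equiv.ext fun i => Fin.ext (chkInv_spec iT i).2.2.1

theorem cj_pT : ∃ z, Obj z ∧ cj pT x = z * z := by
  have h1 : pT⁻¹ = pT := inv_eq_of_mul_eq_one_left pT_sq
  have h5 : x * x * x * x * x = 1 :=
    Equiv.ext fun i => Fin.ext (Nat.eq_of_beq_eq_true ((allB_iff _ _).1 c6 i i.2))
  refine ⟨cj pT (x * x * x), ⟨481, by norm_num, Or.inl fun i => ?_⟩, ?_⟩
  · unfold cj
    rw [h1]
    exact (Nat.eq_of_beq_eq_true ((allB_iff _ _).1 cT i i.2)).symm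
  · unfold cj
    calc pT * x * pT⁻¹ = pT * (x * x * x * x * x * x) * pT⁻¹ := by rw [h5, one_mul]
      _ = _ := by group

theorem pairAut_G : PairAut G := by
  refine dat.pairAut ?_ Cfsg.Agent.H269.CubeJ2.aut_G ?_
  · have h0 : Ag pA tA := fun _ => rfl
    have h1 : pA⁻¹ = pA := inv_eq_of_mul_eq_one_left (Equiv.ext fun i => Fin.ext (chkInv_spec iA i).2.2.1)
    have h2 : ∀ i : Fin 100, (cj pA x i : ℕ) = lk tA (lk (ent 0) (lk tA i)) := by
      intro i
      unfold cj
      rw [h1]
      rfl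
    refine ⟨pA, mA, fun h => ?_, fun h => ?_⟩
    · have h3 : ∀ i : Fin 100, lk (ent 0) i = lk tA (lk (ent 0) (lk tA i)) := fun i => by
        rw [← h2, h]
        rfl
      revert h3
      decide +kernel
    · have h3 : ∀ i : Fin 100, lk xi i = lk tA (lk (ent 0) (lk tA i)) := fun i => by
        rw [← h2, h]
        rfl
      revert h3
      decide +kernel
  · intro h hh
    rcases Int.units_eq_one_or (Perm.sign h) with hs | hs
    · have h1 : h ∈ G := by
        rw [Cfsg.Agent.H269.CubeJ2.G_eq]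
        exact ⟨hh, hs⟩
      exact good_obj (obj_G h1 x ⟨0, by norm_num, Or.inl ag_x⟩)
    · have h1 : h * pT ∈ G := by
        rw [Cfsg.Agent.H269.CubeJ2.G_eq]
        refine ⟨mul_mem hh pT_mem, ?_⟩
        change Perm.sign (h * pT) = 1
        rw [map_mul, hs, sign_T]
        decide
      obtain ⟨z, hz, he⟩ := cj_pT
      have h2 : cj h x = cj (h * pT) z * cj (h * pT) z := by
        have h3 : h = h * pT * pT := by rw [mul_assoc, pT_sq, mul_one]
        conv_lhs => rw [h3, dat.mul, he]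
        unfold cj
        group
      rw [h2]
      exact good_sq (good_obj (obj_G h1 z hz))

end Cfsg.Agent.SP.PosJ2

namespace Cfsg.Agent.SP

theorem posJ2 : PairAut Spor.J2 := by
  obtain ⟨e⟩ := Cfsg.Agent.J2.HundredGens.J2_iso Cfsg.Agent.S1619.result.2.2.2
  exact PosJ2.pairAut_G.of_equiv e.symm

end Cfsg.Agent.SP
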