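import Cfsg.Agent.SP.Pos.D.LyChk1
import Cfsg.Agent.SP.Pos.D.LyChk2
import Cfsg.Agent.SP.Basic
import Cfsg.Agent.TypeM.OutLyFin

/-! # S5755, the row of `Ly`: `N(3A) = 3.McL:2` over `C(3A) = 3.McL` -/

set_option autoImplicit false

namespace Cfsg.Agent.SP.PosD.Lyons

open Cfsg.Agent.Ly.Setup (psi)
open Cfsg.Agent.Ly.Cover (Hhat)

theorem orb_Sm : Orb Sm := closB_sound ((ctx_eq fun _ s => closB s Sm).symm.trans clos_ok)

theorem wsb_full : ∀ w ∈ wsb, Full X0 (wd w) := by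
  intro w hw
  simp only [wsb, List.mem_cons, List.not_mem_nil, or_false] at hw
  rcases hw with rfl | rfl | rfl | rfl
  · exact lv2B_sound orb_Sm ((ctx_eq fun r s => lv2B r s Sm wb0 gb0 tb0 rb0).symm.trans lb0_ok)
  · exact lv2B_sound orb_Sm ((ctx_eq fun r s => lv2B r s Sm wb1 gb1 tb1 rb1).symm.trans lb1_ok)
  · exact lv2B_sound orb_Sm ((ctx_eq fun r s => lv2B r s Sm wb2 gb2 tb2 rb2).symm.trans lb2_ok)
  · exact lv2B_sound orb_Sm ((ctx_eq fun r s => lv2B r s Sm wb3 gb3 tb3 rb3).symm.trans lb3_ok)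

theorem full_bw {i : ℕ} (hi : i < 5) : ∀ a : Hhat, Full (cj a) (wd (bw i)) := by
  interval_cases i
  · exact lv1B_sound orb_Sm wsb_full ((ctx_eq fun r s => lv1B r s Sm wsb (bw 0) ga0 ta0 ra0).symm.trans la0_ok)
  · exact lv1B_sound orb_Sm wsb_full ((ctx_eq fun r s => lv1B r s Sm wsb (bw 1) ga1 ta1 ra1).symm.trans la1_ok)
  · exact lv1B_sound orb_Sm wsb_full ((ctx_eq fun r s => lv1B r s Sm wsb (bw 2) ga2 ta2 ra2).symm.trans la2_ok)
  · exact lv1B_sound orb_Sm wsb_full ((ctx_eq fun r s => lv1B r s Sm wsb (bw 3) ga3 ta3 ra3).symm.trans la3_ok)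
  · exact lv1B_sound orb_Sm wsb_full ((ctx_eq fun r s => lv1B r s Sm wsb (bw 4) ga4 ta4 ra4).symm.trans la4_ok)

theorem gd_conj (t : GG) : Gd X0 (t⁻¹ * X0 * t) := by
  obtain ⟨i, hi, a, b, rfl⟩ := decomp t
  have h := (full_bw hi b⁻¹ a).conj (psi b)
  unfold cj at h
  rw [map_inv] at h
  generalize X0 = y at h ⊢
  rwa [show (psi b)⁻¹ * ((psi b)⁻¹⁻¹ * y * (psi b)⁻¹) * psi b = y by group,
    show (psi b)⁻¹ * ((wd (bw i))⁻¹ * ((psi a)⁻¹ * y * psi a) * wd (bw i)) * psi b =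
      (psi a * wd (bw i) * psi b)⁻¹ * y * (psi a * wd (bw i) * psi b) by group] at h

/-- the elements centralising or inverting `y` -/
def nmSub {G : Type*} [Group G] (y : G) : Subgroup G where
  carrier := {g | Nm g y}
  one_mem' := Or.inl (by simp)
  mul_mem' := by
    intro a b ha hb
    rcases ha with ha | ha <;> rcases hb with hb | hb
    · left; rw [mul_assoc, hb, ← mul_assoc, ha, mul_assoc]
    · right; rw [mul_assoc, hb, ← mul_assoc, inv_rel ha, mul_assoc]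
    · right; rw [mul_assoc, hb, ← mul_assoc, ha, mul_assoc]
    · left; rw [mul_assoc, hb, ← mul_assoc, inv_rel ha, inv_inv, mul_assoc]
  inv_mem' := by
    intro a ha
    rcases ha with ha | ha
    · left
      calc a⁻¹ * y = a⁻¹ * (y * a) * a⁻¹ := by group
        _ = y * a⁻¹ := by rw [← ha]; group
    · right
      have h1 := inv_rel ha
      rw [inv_inv] at h1
      calc a⁻¹ * y = a⁻¹ * (y * a) * a⁻¹ := by group
        _ = y⁻¹ * a⁻¹ := by rw [← h1]; group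

theorem pair_of {G : Type*} [Group G] {y : G} (h1 : y ≠ y⁻¹) (h2 : ∃ g, ¬ Nm g y)
    (h3 : ∀ t, Gd y (t⁻¹ * y * t)) : Pair G := by
  refine ⟨nmSub y, Subgroup.centralizer {y}, isPair_of_index_two ?_ ?_ ?_ ?_⟩
  · intro h
    obtain ⟨g, hg⟩ := h2
    exact hg (show g ∈ nmSub y from h ▸ Subgroup.mem_top g)
  · intro g hg
    exact Or.inl (Subgroup.mem_centralizer_singleton_iff.1 hg)
  · intro a ha b hb na nb
    rw [Subgroup.mem_centralizer_singleton_iff] at na nb ⊢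
    have ha' : a * y = y⁻¹ * a := (show Nm a y from ha).resolve_left na
    have hb' : b * y = y⁻¹ * b := (show Nm b y from hb).resolve_left nb
    rw [mul_assoc, hb', ← mul_assoc, inv_rel ha', inv_inv, mul_assoc]
  · intro t
    obtain ⟨g, hg, hn⟩ := h3 t⁻¹
    refine ⟨g, Or.inr hg, ?_, fun hc => h1 ?_⟩
    · have h4 := hn.conj t
      rwa [show t⁻¹ * (t⁻¹⁻¹ * y * t⁻¹) * t = y by group] at h4
    · rw [Subgroup.mem_centralizer_singleton_iff, hg] at hc
      exact (mul_right_cancel hc).symm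

theorem X0_ne : X0 ≠ X0⁻¹ := by
  have h := ne_of_row (v := x0) (w := iw x0) 0 (by decide +kernel)
  rwa [wd_iw] at h

theorem not_nm : ¬ Nm (wd [1]) X0 := by
  have h1 := ne_of_row (v := [1] ++ x0) (w := x0 ++ [1]) 0 (by decide +kernel)
  have h2 := ne_of_row (v := [1] ++ x0) (w := iw x0 ++ [1]) 0 (by decide +kernel)
  rw [wd_append, wd_append] at h1
  rw [wd_append, wd_append, wd_iw] at h2
  exact fun h => h.elim h1 h2

end Cfsg.Agent.SP.PosD.Lyons

namespace Cfsg.Agent.SP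

/-- The row of `Ly`. -/
theorem posLy : PairAut Cfsg.Spor.Ly :=
  (PosD.Lyons.pair_of PosD.Lyons.X0_ne ⟨_, PosD.Lyons.not_nm⟩ PosD.Lyons.gd_conj).pairAut fun τ =>
    let ⟨t, ht⟩ := Cfsg.Agent.TypeM.OutLyFin.inner_ly τ; ⟨t, ht.symm⟩

end Cfsg.Agent.SP
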